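import Cfsg.Agent.H37.HT.Grp
import Cfsg.Agent.H37.HT.Trans
import Cfsg.Agent.H352.HT.Core
import Cfsg.Agent.H420.HT.Out
import Cfsg.Agent.H234.HT.Ed
import Cfsg.Agent.Characters.CCBasic

/-!
# S4933, part (O): the row from the data (helper37)

* `row_of_fd`  : abstract form (`FD`, `Test`, `Auts`);
* `row_of_ed'` : with the eigenvalues and any `FD` passing the test;
* `row_of_ed`  : final form for the rows (criterion of Lemma B).
-/

set_option autoImplicit false

open Cfsg Cfsg.Agent.Characters.Core Cfsg.Agent.H316.HT Subgroup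

namespace Cfsg.Agent.H37.HT

universe u v

/-- an abelian group has no characters of degree `p ^ a`, `a > 0` -/
theorem not_cd_of_comm {p a : ℕ} [Fact p.Prime] (ha : 0 < a) {P : Type u} [Group P] (hc : ∀ x y : P, x * y = y * x) :
    ¬ CD p a P := by
  rintro ⟨-, φ, hφ⟩
  have h1 : (φ : P → ℂ) 1 = 1 := Cfsg.Agent.Characters.CCBasic.irr_apply_one_of_comm hc φ.2
  unfold charDegree at hφ
  rw [h1] at hφ
  simp only [Complex.one_re, Nat.floor_one] at hφ
  have h2 : 1 < p ^ a := Nat.one_lt_pow ha.ne' (Fact.out : p.Prime).one_lt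
  omega

/-- **the row, abstract form** -/
theorem row_of_fd {p : ℕ} [Fact p.Prime] {r f : ℕ} {S : Type v} [Group S] (hab : AbSyl p S)
    (hr : ¬ p ∣ r) (hf : 0 < f) (D : FD p r f S) (hT : Test D) (hA : D.Auts) : Row p S := by
  intro A _ _ N _ he hC M hM P a ha hcd
  obtain ⟨e⟩ := he
  have habN : AbSyl p N := hab.congr e
  obtain ⟨R, hR⟩ := exists_sylow_subgroupOf P N
  have hcomm : ∀ x ∈ (P : Subgroup A), x ∈ N → ∀ y ∈ (P : Subgroup A), y ∈ N → x * y = y * x := by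
    intro x hx hxN y hy hyN
    have h1 : (⟨x, hxN⟩ : N) ∈ (R : Subgroup N) := by rw [hR]; exact hx
    have h2 : (⟨y, hyN⟩ : N) ∈ (R : Subgroup N) := by rw [hR]; exact hy
    exact congrArg Subtype.val (habN R _ h1 _ h2)
  have hPN : ¬ (P : Subgroup A) ≤ N := by
    intro h
    exact not_cd_of_comm ha (fun x y : (P : Subgroup A) =>
      Subtype.ext (hcomm x x.2 (h x.2) y y.2 (h y.2))) hcd
  obtain ⟨h1, h2, ψ, h3, h4, h5⟩ := exists_moved hM N hC P hPN habN hr hf (D.comap e) (hT.comap e) (hA.comap e)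
  exact Cfsg.Agent.H352.HT.good_of_orbit hM N P ha hcd hcomm h1 h2 ψ h3 h4 h5

/-- **the row from the eigenvalues**, with any function passing the test -/
theorem row_of_ed' {p : ℕ} [Fact p.Prime] {r f : ℕ} (hr : r.Prime) (hrp : r ≠ p) (hf : 0 < f)
    {S : Type v} [Group S] [Finite S] (hab : AbSyl p S)
    (hout : (Nat.card (Out S)).factorization p ≤ f.factorization p)
    {K : Type u} [Field K] (E : ED p r f S K)
    (hD : ∃ D : FD p r f S, Test D ∧
      (∀ (x y : S) (k : ℕ), IsP p x → IsP p y → E.E x = ((E.E y).map fun a => a ^ k) → D.F x = D.F (y ^ k)))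
    (φ : MulAut S) (hφ : ∀ x : S, IsP p x → E.E (φ x) = (E.E x).map fun a => a ^ r)
    (hφf : ∃ k : ℕ, ¬ p ∣ k ∧ φ ^ (k * f) ∈ Inn S)
    (hc : ∀ (g : MulAut S) (x : S), IsP p x → E.E (g (φ (g⁻¹ x))) = E.E (φ x)) : Row p S := by
  obtain ⟨D, hT, hD⟩ := hD
  have hrp' : ¬ p ∣ r := fun h => hrp (((Nat.prime_dvd_prime_iff_eq Fact.out hr).1 h).symm)
  have h1 : ∀ x : S, IsP p x → D.F (φ x) = D.F (x ^ r) := fun x hx => hD (φ x) x r (isP_aut hx φ) hx (hφ x hx)
  have h2 : ∀ (g : MulAut S) (x : S), IsP p x → D.F (g (φ (g⁻¹ x))) = D.F (φ x) := by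
    intro g x hx
    have h3 := hD (g (φ (g⁻¹ x))) (φ x) 1 (isP_aut (isP_aut (isP_aut hx _) _) _) (isP_aut hx _) (by
      simp only [pow_one, Multiset.map_id']
      exact hc g x hx)
    rwa [pow_one] at h3
  exact row_of_fd hab hrp' hf D hT (Cfsg.Agent.H420.HT.auts_of_card hrp' hf D hT hout φ h1 hφf h2)

/-- **the row from the eigenvalues** -/
theorem row_of_ed {p : ℕ} [Fact p.Prime] (hp2 : p ≠ 2) {r f : ℕ} (hr : r.Prime) (hrp : r ≠ p) (hf : 0 < f)
    {S : Type v} [Group S] [Finite S] (hab : AbSyl p S)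
    (hout : (Nat.card (Out S)).factorization p ≤ f.factorization p)
    {K : Type u} [Field K] [CharP K r] [IsAlgClosed K] (E : ED p r f S K) (hy : EY E)
    (φ : MulAut S) (hφ : ∀ x : S, IsP p x → E.E (φ x) = (E.E x).map fun a => a ^ r)
    (hφf : ∃ k : ℕ, ¬ p ∣ k ∧ φ ^ (k * f) ∈ Inn S)
    (hc : ∀ (g : MulAut S) (x : S), IsP p x → E.E (g (φ (g⁻¹ x))) = E.E (φ x)) : Row p S :=
  row_of_ed' hr hrp hf hab hout E (Cfsg.Agent.H234.HT.exists_fd hp2 hr hrp hf E hy) φ hφ hφf hc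

end Cfsg.Agent.H37.HT
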