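import Cfsg.Agent.H37.HT.Fd
import Cfsg.Agent.H892.EP.Basic
import Cfsg.Agent.Characters.Brauer
import Cfsg.Agent.Characters.CentralCharacter
import Cfsg.Agent.CharDeep.LinearChar
import Mathlib

/-!
# S4933, part (O), Theorem A (helper37)

If every `ψ` of `p'`-degree of the principal block satisfies `ψ ∘ α = ψ ∘ d` with `F ∘ d = F`, then
`F (α y) ≡ F y` modulo `p` at all `p`-elements `y` (the Sylow `p`-subgroups are abelian).
-/

set_option autoImplicit false
set_option linter.unusedSectionVars false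

open scoped ComplexConjugate Pointwise
open Cfsg Cfsg.Agent.Characters.Core Subgroup

namespace Cfsg.Agent.H37.HT

universe u

section general

variable {N : Type u} [Group N] {p : ℕ}

/-- the `p`-section of `y` -/
def Sec (p : ℕ) (y : N) : Set N := {x | ∃ z, IsPPart p x z ∧ IsConj y z}

theorem IsPPart.conj {x z : N} (h : IsPPart p x z) (g : N) : IsPPart p (g * x * g⁻¹) (g * z * g⁻¹) := by
  obtain ⟨w, h1, h2, ⟨k, h3⟩, h4⟩ := h
  refine ⟨g * w * g⁻¹, ?_, ?_, ⟨k, ?_⟩, ?_⟩
  · rw [← h1]; group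
  · have := h2.map (MulAut.conj g).toMonoidHom
    simpa using this
  · rw [← h3]; exact (MulAut.conj g).orderOf_eq z
  · rw [show orderOf (g * w * g⁻¹) = orderOf w from (MulAut.conj g).orderOf_eq w]; exact h4

theorem sec_conj {y x : N} (h : x ∈ Sec p y) (g : N) : g * x * g⁻¹ ∈ Sec p y := by
  obtain ⟨z, h1, h2⟩ := h
  exact ⟨_, IsPPart.conj h1 g, h2.trans (isConj_iff.2 ⟨g, rfl⟩)⟩

theorem sec_conj_iff {y x : N} (g : N) : g * x * g⁻¹ ∈ Sec p y ↔ x ∈ Sec p y := by
  constructor
  · intro h
    have := sec_conj h g⁻¹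
    convert this using 1
    group
  · exact fun h => sec_conj h g

theorem IsPPart.aut {x z : N} (h : IsPPart p x z) (α : MulAut N) : IsPPart p (α x) (α z) := by
  obtain ⟨w, h1, h2, ⟨k, h3⟩, h4⟩ := h
  refine ⟨α w, ?_, ?_, ⟨k, ?_⟩, ?_⟩
  · rw [← h1, map_mul]
  · exact h2.map (α : N ≃* N).toMonoidHom
  · rw [← h3]; exact α.orderOf_eq z
  · rw [show orderOf (α w) = orderOf w from α.orderOf_eq w]; exact h4

theorem isConj_aut {x z : N} (h : IsConj x z) (α : MulAut N) : IsConj (α x) (α z) := by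
  obtain ⟨g, hg⟩ := isConj_iff.1 h
  exact isConj_iff.2 ⟨α g, by rw [← hg, map_mul, map_mul, map_inv]⟩

theorem sec_aut (α : MulAut N) (y x : N) : α x ∈ Sec p (α y) ↔ x ∈ Sec p y := by
  constructor
  · rintro ⟨z, h1, h2⟩
    refine ⟨α⁻¹ z, ?_, ?_⟩
    · have := IsPPart.aut h1 α⁻¹
      simpa using this
    · have := isConj_aut h2 α⁻¹
      simpa using this
  · rintro ⟨z, h1, h2⟩
    exact ⟨α z, IsPPart.aut h1 α, isConj_aut h2 α⟩

variable [Finite N] [Fact p.Prime]

/-- a `p`-element in the section of `y` is conjugate to `y` -/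
theorem mem_sec_iff {y x : N} (hx : IsP p x) : x ∈ Sec p y ↔ IsConj y x := by
  have h1 : IsPPart p x x := by
    obtain ⟨k, hk⟩ := hx
    obtain ⟨j, -, hj⟩ := (Nat.dvd_prime_pow (Fact.out : p.Prime)).1 (orderOf_dvd_of_pow_eq_one hk)
    refine ⟨1, mul_one x, Commute.one_right x, ⟨j, hj⟩, ?_⟩
    rw [orderOf_one]
    exact (Fact.out : p.Prime).one_lt.ne' ∘ Nat.dvd_one.1
  constructor
  · rintro ⟨z, h2, h3⟩
    rwa [← Cfsg.Agent.Blocks.PPart.isPPart_unique h2 h1]
  · exact fun h => ⟨x, h1, h⟩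

theorem isP_of_mem (P : Sylow p N) {x : N} (hx : x ∈ (P : Subgroup N)) : IsP p x := by
  obtain ⟨k, hk⟩ := P.2 ⟨x, hx⟩
  exact ⟨k, by simpa using congrArg Subtype.val hk⟩

theorem isP_conj {x : N} (h : IsP p x) (g : N) : IsP p (g * x * g⁻¹) := by
  obtain ⟨k, hk⟩ := h
  exact ⟨k, by rw [conj_pow, hk]; group⟩

omit [Finite N] [Fact p.Prime] in
theorem isP_aut {x : N} (h : IsP p x) (α : MulAut N) : IsP p (α x) := by
  obtain ⟨k, hk⟩ := h
  exact ⟨k, by rw [← map_pow, hk, map_one]⟩

/-- sums of class functions over a Sylow subgroup do not change under automorphisms -/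
theorem sum_aut (P : Sylow p N) [Fintype (P : Subgroup N)] {h : N → ℂ} (hh : ∀ g x, h (g * x * g⁻¹) = h x) (β : MulAut N) :
    ∑ x : (P : Subgroup N), h (β x) = ∑ x : (P : Subgroup N), h x := by
  classical
  have : Fintype N := Fintype.ofFinite N
  -- β P = g P g⁻¹
  obtain ⟨g, hg⟩ := MulAction.exists_smul_eq N (β • P) P
  have hmem : ∀ x : N, x ∈ (P : Subgroup N) ↔ g * β x * g⁻¹ ∈ (P : Subgroup N) := by
    intro x
    have h1 : (P : Subgroup N) = (MulAut.conj g * β) • (P : Subgroup N) := by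
      conv_lhs => rw [← hg]
      rw [mul_smul]; rfl
    constructor
    · intro hx
      rw [h1]
      exact Subgroup.smul_mem_pointwise_smul _ (MulAut.conj g * β) _ hx
    · intro hx
      rw [h1] at hx
      obtain ⟨z, hz, hz'⟩ := hx
      have h2 : (MulAut.conj g * β) z = (MulAut.conj g * β) x := hz'
      have h3 := (MulAut.conj g * β).injective h2
      rw [← h3]; exact hz
  refine Finset.sum_bij (fun x _ => ⟨g * β x * g⁻¹, (hmem x).1 x.2⟩) (fun _ _ => Finset.mem_univ _) ?_ ?_ ?_
  · intro a _ b _ hab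
    have h1 := congrArg Subtype.val hab
    have h2 : β (a : N) = β (b : N) := by simpa using h1
    exact Subtype.ext (β.injective h2)
  · intro b _
    refine ⟨⟨β⁻¹ (g⁻¹ * b * g), ?_⟩, Finset.mem_univ _, ?_⟩
    · rw [hmem, MulAut.apply_inv_self]
      have : g * (g⁻¹ * (b : N) * g) * g⁻¹ = b := by group
      rw [this]; exact b.2
    · apply Subtype.ext
      show g * β (β⁻¹ (g⁻¹ * b * g)) * g⁻¹ = b
      rw [MulAut.apply_inv_self]; group
  · intro a _
    exact (hh g (β a)).symm

end general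

section chars

variable {N : Type u} [Group N] [Finite N] {p : ℕ} [Fact p.Prime]

/-- composition with an automorphism -/
def compA (χ : IrrCharacter N) (α : MulAut N) : IrrCharacter N :=
  ⟨fun x => (χ : N → ℂ) (α x), isIrr_comp (α : N ≃* N).toMonoidHom (α : N ≃* N).surjective χ.2⟩

omit [Finite N] in
theorem compA_apply (χ : IrrCharacter N) (α : MulAut N) (x : N) : (compA χ α : N → ℂ) x = (χ : N → ℂ) (α x) := rfl

open scoped Classical in
/-- the sum over a section -/
noncomputable def secSum (p : ℕ) [Fintype N] (χ : N → ℂ) (y : N) : ℂ := ∑ x : N, if x ∈ Sec p y then χ x else 0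

theorem secSum_aut [Fintype N] (χ : IrrCharacter N) (α : MulAut N) (y : N) :
    secSum p (χ : N → ℂ) (α y) = secSum p (compA χ α : N → ℂ) y := by
  classical
  unfold secSum
  refine (Fintype.sum_equiv (α : N ≃* N).toEquiv _ _ fun x => ?_).symm
  show (if x ∈ Sec p y then (χ : N → ℂ) (α x) else 0) = if α x ∈ Sec p (α y) then (χ : N → ℂ) (α x) else 0
  simp only [sec_aut α y x]

theorem secSum_eq_zero {M : Ideal AlgInt} (hM : IsPModular p M) [Fintype N] (χ : IrrCharacter N)
    (hχ : χ ∉ principalBlock M N) (y : N) : secSum p (χ : N → ℂ) y = 0 := by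
  classical
  by_contra h
  apply hχ
  apply Cfsg.Agent.H892.EP.mem_of_section_sum hM χ y
  intro h0
  apply h
  rw [finsum_mem_eq_finite_toFinset_sum _ (Set.toFinite _)] at h0
  rw [← h0]
  unfold secSum
  rw [← Finset.sum_filter]
  refine Finset.sum_congr ?_ fun _ _ => rfl
  ext x
  simp [Sec]

theorem secSum_integral [Fintype N] (χ : IrrCharacter N) (y : N) :
    ∃ w : ℂ, IsIntegral ℤ w ∧ secSum p (χ : N → ℂ) y = (χ : N → ℂ) 1 * w := by
  classical
  obtain ⟨n, ρ, hρ, hχ⟩ := χ.2
  have h1 := Cfsg.Agent.Characters.CentralCharacter.isIntegral_sum_int ρ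
    (fun x => if x ∈ Sec p y then 1 else 0) (fun x g => by simp only [sec_conj_iff])
  have hd : (χ : N → ℂ) 1 = (Module.finrank ℂ (Fin n → ℂ) : ℂ) := by
    show χ.1 1 = _
    rw [← hχ]; exact ρ.char_one
  have hne : (χ : N → ℂ) 1 ≠ 0 := isIrr_apply_one_ne_zero χ.2
  refine ⟨_, h1, ?_⟩
  rw [← hd, mul_div_cancel₀ _ hne]
  unfold secSum
  refine Finset.sum_congr rfl fun x _ => ?_
  show (if x ∈ Sec p y then χ.1 x else 0) = _
  rw [← hχ]
  split_ifs <;> simp

theorem mem_compA {M : Ideal AlgInt} (hM : IsPModular p M) (χ : IrrCharacter N) (α : MulAut N) :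
    compA χ α ∈ principalBlock M N ↔ χ ∈ principalBlock M N := by
  have key : ∀ (χ : IrrCharacter N) (α : MulAut N), χ ∈ principalBlock M N → compA χ α ∈ principalBlock M N := by
    intro χ α hχ
    apply Cfsg.Agent.H892.EP.mem_of_regSum hM
    have h1 := Cfsg.Agent.H892.EP.regSum_ne_zero hM χ hχ
    intro h0
    apply h1
    rw [← h0]
    rw [finsum_mem_eq_finite_toFinset_sum _ (Set.toFinite _), finsum_mem_eq_finite_toFinset_sum _ (Set.toFinite _)]
    refine (Finset.sum_bij (fun x _ => α x) ?_ ?_ ?_ ?_).symm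
    · intro x hx
      simp only [Set.Finite.mem_toFinset, Set.mem_ofPred_eq] at hx ⊢
      rwa [show orderOf (α x) = orderOf x from α.orderOf_eq x]
    · intro a _ b _ hab
      exact α.injective hab
    · intro b hb
      simp only [Set.Finite.mem_toFinset, Set.mem_ofPred_eq] at hb ⊢
      refine ⟨α⁻¹ b, ?_, MulAut.apply_inv_self _ _ _⟩
      rwa [show orderOf (α⁻¹ b) = orderOf b from (α⁻¹).orderOf_eq b]
    · intro a _
      rfl
  refine ⟨fun h => ?_, key χ α⟩
  have h1 := key _ α⁻¹ h
  have h2 : compA (compA χ α) α⁻¹ = χ := by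
    apply Subtype.ext
    funext x
    show (χ : N → ℂ) (α (α⁻¹ x)) = (χ : N → ℂ) x
    rw [MulAut.apply_inv_self]
  rwa [h2] at h1

/-- the multiplicity of `χ` in the function induced from a Sylow subgroup -/
noncomputable def cf [Fintype N] (P : Sylow p N) (F : N → ℂ) (χ : N → ℂ) : ℂ :=
  classInner (indFun (P : Subgroup N) (fun x => F x)) χ

theorem cf_eq [Fintype N] (P : Sylow p N) [Fintype (P : Subgroup N)] (F : N → ℂ) (χ : IrrCharacter N) :
    cf P F (χ : N → ℂ) = (Nat.card (P : Subgroup N) : ℂ)⁻¹ * ∑ x : (P : Subgroup N), F x * conj ((χ : N → ℂ) x) := by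
  unfold cf
  rw [Cfsg.Agent.Characters.Brauer.classInner_indFun (P : Subgroup N) inferInstance _ _ (isIrr_isClassFunction χ.2)]
  rfl

/-- `F` and `F ∘ d` agree at the `p`-elements: the multiplicities do not change -/
theorem cf_comp [Fintype N] (P : Sylow p N) {F : N → ℂ} (hF : ∀ g x, F (g * x * g⁻¹) = F x) (χ : IrrCharacter N)
    (d : MulAut N) (hd : ∀ x : N, IsP p x → F (d x) = F x) :
    cf P F (compA χ d : N → ℂ) = cf P F (χ : N → ℂ) := by
  classical
  have : Fintype (P : Subgroup N) := Fintype.ofFinite _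
  rw [cf_eq, cf_eq]
  congr 1
  have h1 := sum_aut P (h := fun x => F x * conj ((χ : N → ℂ) x)) (fun g x => by
    simp only [hF]
    rw [isIrr_isClassFunction χ.2 x g]) d
  rw [← h1]
  refine Finset.sum_congr rfl fun x _ => ?_
  rw [compA_apply, hd _ (isP_of_mem P x.2)]

/-- the multiplicities are natural numbers -/
theorem cf_nat [Fintype N] (P : Sylow p N) {F : N → ℂ} (hF : IsCharacter (P : Subgroup N) (fun x => F x))
    (χ : IrrCharacter N) : ∃ n : ℕ, cf P F (χ : N → ℂ) = n := by
  have : Fintype (P : Subgroup N) := Fintype.ofFinite _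
  unfold cf
  exact classInner_isNat (Cfsg.Agent.Characters.Brauer.isCharacter_indFun (P : Subgroup N) hF) (isIrr_isCharacter χ.2)

open scoped Classical in
/-- the number of conjugates of `y` in `P` -/
noncomputable def kk (P : Sylow p N) (y : N) : ℕ := Nat.card {x : (P : Subgroup N) // IsConj y (x : N)}

open scoped Classical in
/-- **the total sum** -/
theorem total [Fintype N] [Fintype (IrrCharacter N)] (P : Sylow p N) {F : N → ℂ} (hF : ∀ g x, F (g * x * g⁻¹) = F x)
    (y : N) :
    ∑ χ : IrrCharacter N, cf P F (χ : N → ℂ) * secSum p (χ : N → ℂ) y =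
      ((P : Subgroup N).index : ℂ) * kk P y * F y := by
  have : Fintype (P : Subgroup N) := Fintype.ofFinite _
  set E : N → ℂ := fun x => if x ∈ Sec p y then 1 else 0 with hE
  have hEc : IsClassFunction N E := by
    intro x g
    simp only [hE, sec_conj_iff]
  have hI : IsClassFunction N (indFun (P : Subgroup N) (fun x => F x)) :=
    Cfsg.Agent.Characters.Brauer.indFun_isClassFunction _ _
  have h1 := classInner_eq_sum hI hEc
  have h2 := Cfsg.Agent.Characters.Brauer.classInner_indFun (P : Subgroup N) inferInstance (fun x => F x) E hEc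
  have h3 : classInner (fun x : (P : Subgroup N) => F x) (fun x : (P : Subgroup N) => E x) =
      (Nat.card (P : Subgroup N) : ℂ)⁻¹ * (kk P y * F y) := by
    rw [classInner_def]
    congr 1
    have h4 : ∀ x : (P : Subgroup N), F x * conj (E x) = if IsConj y (x : N) then F y else 0 := by
      intro x
      have h5 := mem_sec_iff (p := p) (y := y) (isP_of_mem P x.2)
      simp only [hE, h5]
      split_ifs with h6
      · obtain ⟨g, hg⟩ := isConj_iff.1 h6
        rw [map_one, mul_one, ← hg, hF]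
      · rw [map_zero, mul_zero]
    rw [Finset.sum_congr rfl fun x _ => h4 x, ← Finset.sum_filter, Finset.sum_const, nsmul_eq_mul]
    congr 1
    unfold kk
    rw [Nat.card_eq_fintype_card, Fintype.card_subtype]
  have h4 : ∀ χ : IrrCharacter N, conj (classInner E (χ : N → ℂ)) = (Nat.card N : ℂ)⁻¹ * secSum p (χ : N → ℂ) y := by
    intro χ
    rw [classInner_def, map_mul, map_inv₀, map_natCast, map_sum]
    congr 1
    unfold secSum
    refine Finset.sum_congr rfl fun x _ => ?_
    simp only [hE]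
    split_ifs <;> simp
  rw [h2, h3] at h1
  have hN : (Nat.card N : ℂ) ≠ 0 := card_ne_zero_complex
  have hP : (Nat.card (P : Subgroup N) : ℂ) ≠ 0 := card_ne_zero_complex
  have h5 : ∑ χ : IrrCharacter N, cf P F (χ : N → ℂ) * secSum p (χ : N → ℂ) y =
      (Nat.card N : ℂ) * ∑ χ : IrrCharacter N,
        classInner (indFun (P : Subgroup N) (fun x => F x)) (χ : N → ℂ) * conj (classInner E (χ : N → ℂ)) := by
    rw [Finset.mul_sum]
    refine Finset.sum_congr rfl fun χ _ => ?_
    rw [h4]
    unfold cf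
    field_simp
  rw [h5, ← h1]
  have h6 : (Nat.card N : ℂ) = Nat.card (P : Subgroup N) * (P : Subgroup N).index := by
    rw [← Nat.cast_mul, Subgroup.card_mul_index]
  rw [h6]
  field_simp

/-- the number of conjugates of `y` in the abelian Sylow subgroup `P` is prime to `p` -/
theorem not_dvd_kk (P : Sylow p N) (hab : ∀ x ∈ (P : Subgroup N), ∀ z ∈ (P : Subgroup N), x * z = z * x)
    {y : N} (hy : y ∈ (P : Subgroup N)) : ¬ p ∣ kk P y := by
  classical
  have hP : IsPGroup p (P : Subgroup N) := P.2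
  -- the action of P on the class of y
  let X := {x : N // IsConj y x}
  let _ : MulAction (P : Subgroup N) X :=
    { smul := fun g x => ⟨g * x.1 * (g : N)⁻¹, x.2.trans (isConj_iff.2 ⟨g, rfl⟩)⟩
      one_smul := fun x => Subtype.ext (by
        show ((1 : (P : Subgroup N)) : N) * x.1 * ((1 : (P : Subgroup N)) : N)⁻¹ = x.1
        simp)
      mul_smul := fun a b x => Subtype.ext (by
        show ((a * b : (P : Subgroup N)) : N) * x.1 * ((a * b : (P : Subgroup N)) : N)⁻¹ =
          (a : N) * ((b : N) * x.1 * (b : N)⁻¹) * (a : N)⁻¹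
        simp only [Subgroup.coe_mul]
        group) }
  have hmod := hP.card_modEq_card_fixedPoints X
  have hfix : Nat.card (MulAction.fixedPoints (P : Subgroup N) X) = kk P y := by
    unfold kk
    refine Nat.card_congr ⟨fun x => ⟨⟨x.1.1, ?_⟩, x.1.2⟩, fun x => ⟨⟨x.1.1, x.2⟩, ?_⟩, fun x => rfl, fun x => rfl⟩
    · -- x centralises P and is a p-element
      have h1 : ∀ g ∈ (P : Subgroup N), g * x.1.1 * g⁻¹ = x.1.1 := fun g hg =>
        congrArg Subtype.val (x.2 ⟨g, hg⟩)
      have hxp : IsP p x.1.1 := by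
        obtain ⟨g, hg⟩ := isConj_iff.1 x.1.2
        rw [← hg]
        exact isP_conj (isP_of_mem P hy) g
      -- zpowers x ≤ normalizer P, P ⊔ zpowers x is a p-group
      have hz : IsPGroup p (Subgroup.zpowers x.1.1) := by
        intro z
        obtain ⟨k, hk⟩ := hxp
        obtain ⟨m, hm⟩ := Subgroup.mem_zpowers_iff.1 z.2
        refine ⟨k, Subtype.ext ?_⟩
        show (z : N) ^ p ^ k = 1
        rw [← hm, ← zpow_natCast, ← zpow_mul, mul_comm, zpow_mul, zpow_natCast, hk, one_zpow]
      have hnorm : Subgroup.zpowers x.1.1 ≤ Subgroup.normalizer ((P : Subgroup N) : Set N) := by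
        rw [Subgroup.zpowers_le, Subgroup.mem_normalizer_iff]
        intro g
        constructor
        · intro hg
          have h2 := h1 g hg
          have h3 : x.1.1 * g * (x.1.1)⁻¹ = g := by
            have h4 : g * x.1.1 = x.1.1 * g := by
              rw [← mul_inv_eq_iff_eq_mul]; exact h2
            rw [← h4]; group
          rw [h3]; exact hg
        · intro hg
          have h2 := h1 _ hg
          have h5 : x.1.1 * g * (x.1.1)⁻¹ * x.1.1 = x.1.1 * (x.1.1 * g * (x.1.1)⁻¹) :=
            mul_inv_eq_iff_eq_mul.1 h2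
          have h6 : g = x.1.1 * g * (x.1.1)⁻¹ := by
            have h7 : x.1.1 * g = x.1.1 * (x.1.1 * g * (x.1.1)⁻¹) := by rw [← h5]; group
            exact mul_left_cancel h7
          rw [h6]; exact hg
      have hsup : IsPGroup p ((P : Subgroup N) ⊔ Subgroup.zpowers x.1.1 : Subgroup N) :=
        hP.to_sup_of_normal_left' hz hnorm
      have heq := P.3 hsup le_sup_left
      exact heq.le (Subgroup.mem_sup_right (Subgroup.mem_zpowers _))
    · intro g
      apply Subtype.ext
      show (g : N) * x.1.1 * (g : N)⁻¹ = x.1.1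
      rw [hab g g.2 x.1.1 x.1.2]; group
  -- the size of the class
  have hX : ¬ p ∣ Nat.card X := by
    have h1 : Nat.card X = (Subgroup.centralizer ({y} : Set N)).index :=
      (Cfsg.Agent.Characters.CentralCharacter.index_centralizer_eq_card y).symm
    rw [h1]
    have h2 : (P : Subgroup N) ≤ Subgroup.centralizer ({y} : Set N) := by
      intro g hg
      rw [Subgroup.mem_centralizer_singleton_iff]
      exact hab g hg y hy
    intro h3
    exact P.not_dvd_index (h3.trans (Subgroup.index_dvd_of_le h2))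
  intro h
  apply hX
  rw [← hfix] at h
  have h1 : Nat.card X ≡ 0 [MOD p] := hmod.trans ((Nat.modEq_zero_iff_dvd).2 h)
  exact (Nat.modEq_zero_iff_dvd).1 h1

theorem kk_aut (P : Sylow p N) (α : MulAut N) (y : N) : kk P (α y) = kk P y := by
  classical
  have : Fintype N := Fintype.ofFinite N
  have : Fintype (P : Subgroup N) := Fintype.ofFinite _
  have key : ∀ z : N, (kk P z : ℂ) = ∑ x : (P : Subgroup N), if IsConj z (x : N) then (1 : ℂ) else 0 := by
    intro z
    unfold kk
    rw [Nat.card_eq_fintype_card, Fintype.card_subtype, ← Finset.sum_filter, Finset.sum_const, nsmul_eq_mul, mul_one]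
  have h1 := sum_aut P (h := fun x => if IsConj (α y) x then (1 : ℂ) else 0) (fun g x => by
    have : IsConj (α y) (g * x * g⁻¹) ↔ IsConj (α y) x :=
      ⟨fun h => h.trans (isConj_iff.2 ⟨g⁻¹, by group⟩), fun h => h.trans (isConj_iff.2 ⟨g, rfl⟩)⟩
    simp only [this]) α
  have h2 : (kk P (α y) : ℂ) = kk P y := by
    rw [key, key, ← h1]
    refine Finset.sum_congr rfl fun x _ => ?_
    have : IsConj (α y) (α x) ↔ IsConj y (x : N) := by
      constructor
      · intro h
        have := isConj_aut h α⁻¹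
        simpa using this
      · exact fun h => isConj_aut h α
    simp only [this]
  exact_mod_cast h2

end chars

section main

variable {N : Type u} [Group N] [Finite N] {p : ℕ} [Fact p.Prime]

/-- algebraic integers divisible by `p` -/
def InP (p : ℕ) (z : ℂ) : Prop := ∃ w : ℂ, IsIntegral ℤ w ∧ z = p * w

theorem InP.add {a b : ℂ} (ha : InP p a) (hb : InP p b) : InP p (a + b) := by
  obtain ⟨w, h1, rfl⟩ := ha
  obtain ⟨v, h2, rfl⟩ := hb
  exact ⟨w + v, h1.add h2, by ring⟩

theorem InP.neg {a : ℂ} (ha : InP p a) : InP p (-a) := by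
  obtain ⟨w, h1, rfl⟩ := ha
  exact ⟨-w, h1.neg, by ring⟩

theorem InP.sub {a b : ℂ} (ha : InP p a) (hb : InP p b) : InP p (a - b) := by
  rw [sub_eq_add_neg]; exact ha.add hb.neg

theorem InP.zero : InP p (0 : ℂ) := ⟨0, isIntegral_zero, by ring⟩

theorem InP.sum {ι : Type*} (s : Finset ι) (f : ι → ℂ) (h : ∀ i ∈ s, InP p (f i)) : InP p (∑ i ∈ s, f i) := by
  classical
  induction s using Finset.induction_on with
  | empty => simpa using InP.zero
  | insert a s ha ih =>
    rw [Finset.sum_insert ha]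
    exact (h a (Finset.mem_insert_self _ _)).add (ih fun i hi => h i (Finset.mem_insert_of_mem hi))

theorem InP.of_mul {n : ℕ} (hn : ¬ p ∣ n) {a : ℂ} (ha : IsIntegral ℤ a) (h : InP p ((n : ℂ) * a)) : InP p a := by
  obtain ⟨w, h1, h2⟩ := h
  have hcop : IsCoprime (p : ℤ) (n : ℤ) :=
    Nat.isCoprime_iff_coprime.2 ((Nat.Prime.coprime_iff_not_dvd Fact.out).2 hn)
  obtain ⟨u, v, huv⟩ := hcop
  refine ⟨(u : ℂ) * a + (v : ℂ) * w, ?_, ?_⟩
  · exact ((isIntegral_algebraMap (R := ℤ) (x := u)).mul ha).add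
      ((isIntegral_algebraMap (R := ℤ) (x := v)).mul h1)
  · have h3 : (u : ℂ) * p + v * n = 1 := by exact_mod_cast congrArg (Int.cast : ℤ → ℂ) huv
    calc a = ((u : ℂ) * p + v * n) * a := by rw [h3, one_mul]
      _ = p * ((u : ℂ) * a) + v * (n * a) := by ring
      _ = p * ((u : ℂ) * a + v * w) := by rw [h2]; ring

theorem charDegree_cast (χ : IrrCharacter N) : (χ : N → ℂ) 1 = (charDegree (χ : N → ℂ) : ℂ) := by
  obtain ⟨n, -, hn⟩ := isIrr_apply_one χ.2
  rw [charDegree, hn]; simp

/-- **Theorem A** -/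
theorem cong_of_inv {M : Ideal AlgInt} (hM : IsPModular p M)
    (hab : AbSyl p N) {r f : ℕ} (D : FD p r f N) (α : MulAut N)
    (h : ∀ ψ : IrrCharacter N, ψ ∈ principalBlock M N → ¬ p ∣ charDegree (ψ : N → ℂ) →
      ∃ d : MulAut N, (∀ x : N, IsP p x → D.F (d x) = D.F x) ∧ ∀ x : N, (ψ : N → ℂ) (α x) = (ψ : N → ℂ) (d x))
    {y : N} (hy : IsP p y) : Cong p (D.F (α y)) (D.F y) := by
  classical
  have : Fintype N := Fintype.ofFinite N
  have : Finite (IrrCharacter N) := finite_irr
  have : Fintype (IrrCharacter N) := Fintype.ofFinite _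
  -- a Sylow subgroup containing `y`
  have hyp : IsPGroup p (Subgroup.zpowers y) := by
    intro z
    obtain ⟨k, hk⟩ := hy
    obtain ⟨m, hm⟩ := Subgroup.mem_zpowers_iff.1 z.2
    refine ⟨k, Subtype.ext ?_⟩
    show (z : N) ^ p ^ k = 1
    rw [← hm, ← zpow_natCast, ← zpow_mul, mul_comm, zpow_mul, zpow_natCast, hk, one_zpow]
  obtain ⟨P, hP⟩ := hyp.exists_le_sylow
  have hyP : y ∈ (P : Subgroup N) := hP (Subgroup.mem_zpowers y)
  have : Fintype (P : Subgroup N) := Fintype.ofFinite _
  -- `F` is a character of `P`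
  obtain ⟨n, l, hl⟩ := D.lin P
  have hchar : IsCharacter (P : Subgroup N) (fun x => D.F x) := by
    have h1 : (fun x : (P : Subgroup N) => D.F x) = ∑ i, fun x : (P : Subgroup N) => ((l i x : ℂˣ) : ℂ) := by
      funext x
      rw [hl, Finset.sum_apply]
    rw [h1]
    exact isCharacter_sum _ fun i _ => isIrr_isCharacter (Cfsg.Agent.CharDeep.LinearChar.isIrrCharacter_of_hom (l i))
  have hFint : ∀ z ∈ (P : Subgroup N), IsIntegral ℤ (D.F z) := by
    intro z hz
    rw [hl ⟨z, hz⟩]
    refine IsIntegral.sum _ fun i _ => ?_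
    obtain ⟨k, hk⟩ := isP_of_mem P hz
    refine IsIntegral.of_pow (n := p ^ k) (pow_pos (Fact.out : p.Prime).pos k) ?_
    have h1 : (l i ⟨z, hz⟩ : ℂˣ) ^ p ^ k = 1 := by
      rw [← map_pow]
      have : (⟨z, hz⟩ : (P : Subgroup N)) ^ p ^ k = 1 := Subtype.ext (by simpa using hk)
      rw [this, map_one]
    have h2 : ((l i ⟨z, hz⟩ : ℂˣ) : ℂ) ^ p ^ k = 1 := by
      rw [← Units.val_pow_eq_pow_val, h1, Units.val_one]
    rw [h2]; exact isIntegral_one
  have hFint' : ∀ z : N, IsP p z → IsIntegral ℤ (D.F z) := by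
    intro z hz
    have hzp : IsPGroup p (Subgroup.zpowers z) := by
      intro w
      obtain ⟨k, hk⟩ := hz
      obtain ⟨m, hm⟩ := Subgroup.mem_zpowers_iff.1 w.2
      refine ⟨k, Subtype.ext ?_⟩
      show (w : N) ^ p ^ k = 1
      rw [← hm, ← zpow_natCast, ← zpow_mul, mul_comm, zpow_mul, zpow_natCast, hk, one_zpow]
    obtain ⟨Q, hQ⟩ := hzp.exists_le_sylow
    obtain ⟨g, hg⟩ := MulAction.exists_smul_eq N Q P
    have h1 : g * z * g⁻¹ ∈ (P : Subgroup N) := by
      rw [← hg]
      exact Subgroup.smul_mem_pointwise_smul _ (MulAut.conj g) _ (hQ (Subgroup.mem_zpowers z))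
    rw [← D.conj g z]
    exact hFint _ h1
  -- the parts of the total sum
  set A : N → ℂ := fun z => ∑ χ ∈ Finset.univ.filter (fun χ : IrrCharacter N => χ ∈ principalBlock M N ∧
    ¬ p ∣ charDegree (χ : N → ℂ)), cf P D.F (χ : N → ℂ) * secSum p (χ : N → ℂ) z with hA
  have hpart : ∀ z : N, InP p ((∑ χ : IrrCharacter N, cf P D.F (χ : N → ℂ) * secSum p (χ : N → ℂ) z) - A z) := by
    intro z
    have h1 := Finset.sum_filter_add_sum_filter_not (Finset.univ : Finset (IrrCharacter N))
      (fun χ : IrrCharacter N => χ ∈ principalBlock M N ∧ ¬ p ∣ charDegree (χ : N → ℂ))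
      (fun χ => cf P D.F (χ : N → ℂ) * secSum p (χ : N → ℂ) z)
    rw [← h1, hA]
    simp only [add_sub_cancel_left]
    refine InP.sum _ _ fun χ hχ => ?_
    rw [Finset.mem_filter] at hχ
    have hχ' := hχ.2
    by_cases hb : χ ∈ principalBlock M N
    · have hdvd : p ∣ charDegree (χ : N → ℂ) := by
        by_contra h2
        exact hχ' ⟨hb, h2⟩
      obtain ⟨c, hc⟩ := cf_nat P hchar χ
      obtain ⟨w, hw1, hw2⟩ := secSum_integral (p := p) χ z
      obtain ⟨e, he⟩ := hdvd
      refine ⟨(c : ℂ) * e * w, ((isIntegral_natCast c).mul (isIntegral_natCast e)).mul hw1, ?_⟩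
      rw [hc, hw2, charDegree_cast, he]
      push_cast
      ring
    · rw [secSum_eq_zero hM χ hb, mul_zero]
      exact InP.zero
  -- the good part is invariant
  have hinv : A (α y) = A y := by
    rw [hA]
    refine Finset.sum_bij (fun χ _ => compA χ α) ?_ ?_ ?_ ?_
    · intro χ hχ
      rw [Finset.mem_filter] at hχ ⊢
      refine ⟨Finset.mem_univ _, (mem_compA hM χ α).2 hχ.2.1, ?_⟩
      have : charDegree (compA χ α : N → ℂ) = charDegree (χ : N → ℂ) := by
        unfold charDegree
        rw [compA_apply, map_one]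
      rw [this]; exact hχ.2.2
    · intro a _ b _ hab'
      apply Subtype.ext
      funext x
      have h1 := congrFun (congrArg Subtype.val hab') (α⁻¹ x)
      have h2 : (a : N → ℂ) (α (α⁻¹ x)) = (b : N → ℂ) (α (α⁻¹ x)) := h1
      rwa [MulAut.apply_inv_self] at h2
    · intro b hb
      rw [Finset.mem_filter] at hb
      refine ⟨compA b α⁻¹, ?_, ?_⟩
      · rw [Finset.mem_filter]
        refine ⟨Finset.mem_univ _, (mem_compA hM b α⁻¹).2 hb.2.1, ?_⟩
        have : charDegree (compA b α⁻¹ : N → ℂ) = charDegree (b : N → ℂ) := by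
          unfold charDegree
          rw [compA_apply, map_one]
        rw [this]; exact hb.2.2
      · apply Subtype.ext
        funext x
        show (b : N → ℂ) (α⁻¹ (α x)) = (b : N → ℂ) x
        rw [MulAut.inv_apply_self]
    · intro χ hχ
      rw [Finset.mem_filter] at hχ
      obtain ⟨d, hd1, hd2⟩ := h χ hχ.2.1 hχ.2.2
      have h1 : compA χ α = compA χ d := by
        apply Subtype.ext
        funext x
        exact hd2 x
      rw [secSum_aut]
      congr 1
      rw [h1, cf_comp P D.conj χ d hd1]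
  -- conclusion
  have h1 := hpart (α y)
  have h2 := hpart y
  rw [total P D.conj, hinv] at h1
  rw [total P D.conj] at h2
  have h3 := h1.sub h2
  rw [kk_aut] at h3
  have h4 : ((P : Subgroup N).index : ℂ) * kk P y * D.F (α y) - A y - (((P : Subgroup N).index : ℂ) * kk P y * D.F y - A y) =
      (((P : Subgroup N).index * kk P y : ℕ) : ℂ) * (D.F (α y) - D.F y) := by
    push_cast; ring
  rw [h4] at h3
  have h5 : ¬ p ∣ (P : Subgroup N).index * kk P y := by
    rw [(Fact.out : p.Prime).dvd_mul]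
    rintro (h6 | h6)
    · exact P.not_dvd_index h6
    · exact not_dvd_kk P (hab P) hyP h6
  exact InP.of_mul h5 ((hFint' _ (isP_aut hy α)).sub (hFint' _ hy)) h3

end main

end Cfsg.Agent.H37.HT
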