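import Cfsg.Agent.H722.HT.Roots
import Cfsg.Agent.ClassicalGeometry.SympIso
import Cfsg.Agent.LieClassical.SympCount

/-!
# S4933, part (O), `PSp`: the element `y` (helper37)

* `exists_sp`     : an isometry of a nondegenerate alternating form as a symplectic matrix;
* `exists_sp_add` : the same with a trivial summand.
-/

set_option autoImplicit false
set_option linter.unusedSectionVars false

open Polynomial

namespace Cfsg.Agent.H37.HT.SpElt

open Cfsg Cfsg.Agent.ClassicalGeometry.SympBasic Cfsg.Agent.ClassicalGeometry.SympIso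

variable {F : Type} [Field F]

/-- an isometry as a symplectic matrix -/
theorem exists_sp {V : Type} [AddCommGroup V] [Module F V] [FiniteDimensional F V] (B : LinearMap.BilinForm F V)
    (hA : B.IsAlt) (hnd : ∀ u, (∀ v, B u v = 0) → u = 0) {n : ℕ} (hn : Module.finrank F V = 2 * n)
    (T : V →ₗ[F] V) (hT : ∀ x y, B (T x) (T y) = B x y) :
    ∃ t : Matrix.symplecticGroup (Fin n) F, (t : Matrix (Fin n ⊕ Fin n) (Fin n ⊕ Fin n) F).charpoly = T.charpoly ∧
      ∀ N : ℕ, T ^ N = 1 → t ^ N = 1 := by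
  classical
  obtain ⟨e, he⟩ := exists_linearEquiv_sympForm B hA hnd hn
  let T' : Module.End F (Fin n ⊕ Fin n → F) := e.symm.conj T
  have hT' : ∀ x, T' x = e.symm (T (e x)) := fun x => by
    simp [T', LinearEquiv.conj_apply]
  let M : Matrix (Fin n ⊕ Fin n) (Fin n ⊕ Fin n) F := LinearMap.toMatrixAlgEquiv' T'
  have hM : ∀ x, M.mulVec x = T' x := fun x => LinearMap.toMatrix'_mulVec T' x
  have hmem : M ∈ Matrix.symplecticGroup (Fin n) F := by
    rw [mem_symplecticGroup_iff]
    intro u v
    rw [hM, hM, hT', hT', ← he, ← he, LinearEquiv.apply_symm_apply, LinearEquiv.apply_symm_apply, hT]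
  refine ⟨⟨M, hmem⟩, ?_, ?_⟩
  · change M.charpoly = _
    rw [← LinearEquiv.charpoly_conj e.symm T, ← LinearMap.charpoly_toMatrix (e.symm.conj T) (Pi.basisFun F (Fin n ⊕ Fin n))]
    rfl
  · intro N hN
    apply Subtype.ext
    rw [SubmonoidClass.coe_pow]
    change (LinearMap.toMatrixAlgEquiv' T') ^ N = 1
    rw [← map_pow]
    have h1 : T' ^ N = 1 := by
      have h2 : T' ^ N = e.symm.conj (T ^ N) := by
        have := (map_pow (LinearEquiv.conjRingEquiv e.symm) T N).symm
        exact this
      rw [h2, hN]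
      ext x
      simp [LinearEquiv.conj_apply]
    rw [h1, map_one]

/-- an isometry and a trivial summand -/
theorem exists_sp_add {V : Type} [AddCommGroup V] [Module F V] [FiniteDimensional F V] (B : LinearMap.BilinForm F V)
    (hA : B.IsAlt) (hnd : ∀ u, (∀ v, B u v = 0) → u = 0) {k n : ℕ} (hk : Module.finrank F V = 2 * k) (hkn : k ≤ n)
    (T : V →ₗ[F] V) (hT : ∀ x y, B (T x) (T y) = B x y) :
    ∃ t : Matrix.symplecticGroup (Fin n) F,
      (t : Matrix (Fin n ⊕ Fin n) (Fin n ⊕ Fin n) F).charpoly = T.charpoly * (X - 1) ^ (2 * (n - k)) ∧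
      ∀ N : ℕ, T ^ N = 1 → t ^ N = 1 := by
  classical
  let W : Type := Fin (n - k) ⊕ Fin (n - k) → F
  let BW : LinearMap.BilinForm F W := sympBilin (n - k) F
  let B' : LinearMap.BilinForm F (V × W) :=
    B.compl₁₂ (LinearMap.fst F V W) (LinearMap.fst F V W) + BW.compl₁₂ (LinearMap.snd F V W) (LinearMap.snd F V W)
  have hB' : ∀ x y : V × W, B' x y = B x.1 y.1 + sympForm (n - k) F x.2 y.2 := fun x y => rfl
  have hfin : Module.finrank F (V × W) = 2 * n := by
    rw [Module.finrank_prod, hk, Module.finrank_fintype_fun_eq_card, Fintype.card_sum, Fintype.card_fin]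
    omega
  obtain ⟨t, h1, h2⟩ := exists_sp B' (fun x => by rw [hB', hA, sympForm_self, add_zero]) (fun u hu => by
    refine Prod.ext (hnd _ fun v => ?_) (eq_zero_of_forall_sympForm_right fun v => ?_)
    · have := hu (v, 0)
      rwa [hB', sympForm_zero_right, add_zero] at this
    · have := hu (0, v)
      rwa [hB', map_zero, zero_add] at this) hfin (T.prodMap (1 : Module.End F W)) (fun x y => by
      rw [hB', hB']
      change B (T x.1) (T y.1) + sympForm (n - k) F x.2 y.2 = _
      rw [hT])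
  refine ⟨t, ?_, fun N hN => h2 N ?_⟩
  · rw [h1, LinearMap.charpoly_prodMap, LinearMap.charpoly_one, Module.finrank_fintype_fun_eq_card, Fintype.card_sum,
      Fintype.card_fin]
    congr 2
    omega
  · have h3 : ∀ N : ℕ, (T.prodMap (1 : Module.End F W)) ^ N = (T ^ N).prodMap 1 := by
      intro N
      induction N with
      | zero => rw [pow_zero, pow_zero]; rfl
      | succ N ih => rw [pow_succ, pow_succ, ih]; rfl
    rw [h3, hN]
    rfl


section field

variable {L : Type} [Field L] [Algebra F L] [FiniteDimensional F L]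

/-- the characteristic polynomial of the multiplication by a primitive element -/
theorem charpoly_mulLeft {x : L} (hx : (minpoly F x).natDegree = Module.finrank F L) :
    (LinearMap.mulLeft F x).charpoly = minpoly F x := by
  have h1 : aeval x (LinearMap.mulLeft F x).charpoly = 0 := by
    have h2 := LinearMap.aeval_self_charpoly (LinearMap.mulLeft F x)
    have h3 : (LinearMap.mulLeft F x) = Algebra.lmul F L x := rfl
    rw [h3, Polynomial.aeval_algHom_apply] at h2
    have h4 := LinearMap.congr_fun h2 1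
    rw [← h3] at h4
    simpa using h4
  refine Polynomial.eq_of_monic_of_dvd_of_natDegree_le (minpoly.monic (Algebra.IsIntegral.isIntegral x))
    (LinearMap.charpoly_monic _) (minpoly.dvd _ _ h1) ?_
  rw [LinearMap.charpoly_natDegree, hx]

/-- `diag (x, x⁻¹)` -/
theorem exists_odd {n : ℕ} (hn : Module.finrank F L ≤ n) [Algebra.IsSeparable F L] {x : L} (hx0 : x ≠ 0)
    (hx : (minpoly F x).natDegree = Module.finrank F L) (hx' : (minpoly F x⁻¹).natDegree = Module.finrank F L) :
    ∃ t : Matrix.symplecticGroup (Fin n) F,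
      (t : Matrix (Fin n ⊕ Fin n) (Fin n ⊕ Fin n) F).charpoly =
        minpoly F x * minpoly F x⁻¹ * (X - 1) ^ (2 * (n - Module.finrank F L)) ∧
      ∀ N : ℕ, x ^ N = 1 → t ^ N = 1 := by
  let B : LinearMap.BilinForm F (L × L) := LinearMap.mk₂ F
    (fun a b => Algebra.trace F L (a.1 * b.2) - Algebra.trace F L (a.2 * b.1))
    (fun a a' b => by rw [Prod.fst_add, Prod.snd_add, add_mul, add_mul, map_add, map_add]; ring)
    (fun c a b => by
      rw [Prod.smul_fst, Prod.smul_snd, smul_mul_assoc, smul_mul_assoc, map_smul, map_smul, smul_sub])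
    (fun a b b' => by rw [Prod.fst_add, Prod.snd_add, mul_add, mul_add, map_add, map_add]; ring)
    (fun c a b => by
      rw [Prod.smul_fst, Prod.smul_snd, mul_smul_comm, mul_smul_comm, map_smul, map_smul, smul_sub])
  have hB : ∀ a b : L × L, B a b = Algebra.trace F L (a.1 * b.2) - Algebra.trace F L (a.2 * b.1) := fun a b => rfl
  have hnd : ∀ a : L, (∀ b, Algebra.trace F L (a * b) = 0) → a = 0 := by
    intro a ha
    exact (traceForm_nondegenerate F L).1 a ha
  obtain ⟨t, h1, h2⟩ := exists_sp_add B (fun a => by rw [hB, mul_comm, sub_self]) (fun a ha => by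
      refine Prod.ext (hnd _ fun v => ?_) (hnd _ fun v => ?_)
      · have := ha (0, v)
        rwa [hB, mul_zero, map_zero, sub_zero] at this
      · have := ha (v, 0)
        rwa [hB, mul_zero, map_zero, zero_sub, neg_eq_zero] at this) (k := Module.finrank F L)
    (by rw [Module.finrank_prod, two_mul]) hn ((LinearMap.mulLeft F x).prodMap (LinearMap.mulLeft F x⁻¹))
    (fun a b => by
      rw [hB, hB]
      change Algebra.trace F L (x * a.1 * (x⁻¹ * b.2)) - Algebra.trace F L (x⁻¹ * a.2 * (x * b.1)) = _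
      congr 2
      · field_simp
      · field_simp)
  refine ⟨t, ?_, fun N hN => h2 N ?_⟩
  · rw [h1, LinearMap.charpoly_prodMap, charpoly_mulLeft hx, charpoly_mulLeft hx']
  · have h3 : ∀ (N : ℕ) (y z : L), ((LinearMap.mulLeft F y).prodMap (LinearMap.mulLeft F z)) ^ N =
        (LinearMap.mulLeft F (y ^ N)).prodMap (LinearMap.mulLeft F (z ^ N)) := by
      intro N y z
      induction N with
      | zero =>
        refine LinearMap.ext fun a => ?_
        simp
      | succ N ih =>
        rw [pow_succ, ih]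
        refine LinearMap.ext fun a => ?_
        simp [pow_succ]
    rw [h3, inv_pow, hN, inv_one]
    refine LinearMap.ext fun a => ?_
    simp

/-- multiplication by `x` with `x x̄ = 1` -/
theorem exists_even {n d : ℕ} (hd : Module.finrank F L = 2 * d) (hn : d ≤ n) [Fintype F] {x : L}
    (hx1 : x * x ^ Fintype.card F ^ d = 1) (hx2 : x ^ Fintype.card F ^ d ≠ x)
    (hx : (minpoly F x).natDegree = Module.finrank F L) :
    ∃ t : Matrix.symplecticGroup (Fin n) F,
      (t : Matrix (Fin n ⊕ Fin n) (Fin n ⊕ Fin n) F).charpoly = minpoly F x * (X - 1) ^ (2 * (n - d)) ∧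
      ∀ N : ℕ, x ^ N = 1 → t ^ N = 1 := by
  have : Finite L := Module.finite_of_finite F
  have : Fintype L := Fintype.ofFinite L
  let bar : L →ₐ[F] L := (FiniteField.frobeniusAlgHom F L) ^ d
  have hbar : ∀ a, bar a = a ^ Fintype.card F ^ d := by
    intro a
    change ((FiniteField.frobeniusAlgHom F L) ^ d) a = _
    rw [AlgHom.coe_pow, FiniteField.coe_frobeniusAlgHom, pow_iterate]
  have hbb : ∀ a, bar (bar a) = a := by
    intro a
    rw [hbar, hbar, ← pow_mul, ← pow_add, ← two_mul, ← hd, ← Module.card_eq_pow_finrank (K := F) (V := L)]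
    exact FiniteField.pow_card a
  let be : L ≃ₐ[F] L := AlgEquiv.ofAlgHom bar bar (AlgHom.ext hbb) (AlgHom.ext hbb)
  have htr : ∀ a, Algebra.trace F L (bar a) = Algebra.trace F L a := fun a => Algebra.trace_eq_of_algEquiv be a
  let B : LinearMap.BilinForm F L := LinearMap.mk₂ F
    (fun a b => Algebra.trace F L (x * (a * bar b - bar a * b)))
    (fun a a' b => by rw [← map_add, map_add bar]; congr 1; ring)
    (fun c a b => by rw [← map_smul, map_smul bar]; congr 1; simp only [Algebra.smul_def]; ring)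
    (fun a b b' => by rw [← map_add, map_add bar]; congr 1; ring)
    (fun c a b => by rw [← map_smul, map_smul bar]; congr 1; simp only [Algebra.smul_def]; ring)
  have hB : ∀ a b : L, B a b = Algebra.trace F L (x * (a * bar b - bar a * b)) := fun a b => rfl
  have hnd : ∀ a : L, (∀ b, Algebra.trace F L (a * b) = 0) → a = 0 := by
    intro a ha
    exact (traceForm_nondegenerate F L).1 a ha
  have hxb : x * bar x = 1 := by rw [hbar, hx1]
  obtain ⟨t, h1, h2⟩ := exists_sp_add B (fun a => by rw [hB, mul_comm a, sub_self, mul_zero, map_zero]) (fun a ha => by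
      have h3 : ∀ b, Algebra.trace F L ((bar x - x) * bar a * b) = 0 := by
        intro b
        have h4 := ha b
        rw [hB, mul_sub, map_sub, ← htr (x * (a * bar b)), map_mul bar, map_mul bar, hbb] at h4
        rw [← h4, ← map_sub]
        congr 1
        ring
      have h5 := hnd _ h3
      rcases mul_eq_zero.1 h5 with h6 | h6
      · exact absurd (sub_eq_zero.1 h6) (by rwa [hbar])
      · rw [← hbb a, h6, map_zero]) hd hn (LinearMap.mulLeft F x)
    (fun a b => by
      rw [hB, hB]
      change Algebra.trace F L (x * (x * a * bar (x * b) - bar (x * a) * (x * b))) = _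
      rw [map_mul bar, map_mul bar]
      congr 1
      linear_combination (x * a * bar b - x * bar a * b) * hxb)
  refine ⟨t, ?_, fun N hN => h2 N ?_⟩
  · rw [h1, charpoly_mulLeft hx]
  · have h3 : (LinearMap.mulLeft F x) = Algebra.lmul F L x := rfl
    rw [h3, ← map_pow, hN, map_one]

end field


section arith

theorem dvd_iff {p q : ℕ} (hq : 1 ≤ q) (d : ℕ) : p ∣ q ^ d - 1 ↔ orderOf ((q : ℕ) : ZMod p) ∣ d := by
  rw [orderOf_dvd_iff_pow_eq_one, ← ZMod.natCast_eq_zero_iff, Nat.cast_sub (Nat.one_le_pow _ _ hq), sub_eq_zero]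
  push_cast
  rfl

theorem pow_iff {K : Type} [Field K] {p q e m : ℕ} (hq : 1 ≤ q) (ho : orderOf ((q : ℕ) : ZMod p) = e)
    (h1 : p ^ (m + 1) ∣ q ^ e - 1) {ω : K} (hp : 0 < p) (hω : IsPrimitiveRoot ω (p ^ (m + 1))) (d : ℕ) :
    ω ^ q ^ d = ω ↔ e ∣ d := by
  have h0 : ω ≠ 0 := hω.ne_zero (pow_pos hp _).ne'
  have h2 : ω ^ q ^ d = ω ↔ p ^ (m + 1) ∣ q ^ d - 1 := by
    rw [← hω.pow_eq_one_iff_dvd]
    have h3 : q ^ d = (q ^ d - 1) + 1 := by have := Nat.one_le_pow d q hq; omega
    constructor
    · intro h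
      rw [h3, pow_succ] at h
      exact mul_right_cancel₀ h0 (by rw [h, one_mul])
    · intro h
      rw [h3, pow_succ, h, one_mul]
  rw [h2]
  constructor
  · intro h
    rw [← ho, ← dvd_iff hq]
    exact (dvd_pow_self p (by omega)).trans h
  · rintro ⟨c, rfl⟩
    refine h1.trans ?_
    have := Nat.sub_dvd_pow_sub_pow (q ^ e) 1 c
    rwa [one_pow, ← pow_mul] at this

/-- the rank -/
theorem rank_of_dvd [Fintype F] {p n : ℕ} [Fact p.Prime] (hpq : ¬ p ∣ Fintype.card F)
    (hd : p ∣ Nat.card (Matrix.symplecticGroup (Fin n) F)) {e : ℕ}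
    (ho : orderOf ((Fintype.card F : ℕ) : ZMod p) = e) :
    (∃ d, e = 2 * d ∧ d ≤ n) ∨ (¬ 2 ∣ e ∧ e ≤ n) := by
  have hp : p.Prime := Fact.out
  have hq : 1 ≤ Fintype.card F := Fintype.card_pos
  rw [Cfsg.Agent.LieClassical.SympCount.card_symplecticGroup] at hd
  rcases (Nat.Prime.dvd_mul hp).1 hd with h | h
  · exact absurd (hp.dvd_of_dvd_pow h) hpq
  obtain ⟨i, hi, h2⟩ := (Prime.dvd_finsetProd_iff hp.prime _).1 h
  rw [Finset.mem_range] at hi
  rw [dvd_iff hq, ho] at h2
  by_cases he : 2 ∣ e
  · left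
    obtain ⟨d, rfl⟩ := he
    have := Nat.le_of_dvd (by omega) (Nat.dvd_of_mul_dvd_mul_left (by norm_num) h2)
    exact ⟨d, rfl, by omega⟩
  · right
    have h3 : Nat.Coprime e 2 := ((Nat.Prime.coprime_iff_not_dvd Nat.prime_two).2 he).symm
    have := Nat.le_of_dvd (by omega) (h3.dvd_of_dvd_mul_left h2)
    exact ⟨he, by omega⟩

end arith

section count

variable {p q e m : ℕ}

theorem cast_of_mod (hm : 1 ≤ m) {k : ℕ} (h : k % p ^ m = 1 % p ^ m) : (k : ZMod p) = 1 := by
  have h1 : (k : ZMod p) = ((1 : ℕ) : ZMod p) :=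
    (ZMod.natCast_eq_natCast_iff k 1 p).2 (Nat.ModEq.of_dvd (dvd_pow_self p (by omega)) h)
  rw [h1, Nat.cast_one]

theorem count_pos (hm : 1 ≤ m) (he : 0 < e) (ho : orderOf ((q : ℕ) : ZMod p) = e) :
    (((Multiset.range e).map fun i => q ^ i).filter fun k => k % p ^ m = 1 % p ^ m).card = 1 := by
  classical
  rw [Multiset.filter_map, Multiset.card_map]
  have h1 : ∀ i ∈ Multiset.range e, ((fun k => k % p ^ m = 1 % p ^ m) ∘ fun i => q ^ i) i ↔ i = 0 := by
    intro i hi
    rw [Multiset.mem_range] at hi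
    constructor
    · intro h
      have h2 := cast_of_mod hm h
      push_cast at h2
      have h3 := orderOf_dvd_of_pow_eq_one h2
      rw [ho] at h3
      rcases Nat.eq_zero_or_pos i with h4 | h4
      · exact h4
      · have := Nat.le_of_dvd h4 h3
        omega
    · rintro rfl
      change q ^ 0 % p ^ m = 1 % p ^ m
      rw [pow_zero]
  rw [Multiset.filter_congr h1, Multiset.filter_eq', Multiset.card_replicate,
    Multiset.count_eq_one_of_mem (Multiset.nodup_range e) (Multiset.mem_range.2 he)]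

theorem count_neg (hp2 : p ≠ 2) [Fact p.Prime] (hm : 1 ≤ m) (he : ¬ 2 ∣ e) (ho : orderOf ((q : ℕ) : ZMod p) = e) :
    (((Multiset.range e).map fun i => (p ^ (m + 1) - 1) * q ^ i).filter fun k => k % p ^ m = 1 % p ^ m).card = 0 := by
  classical
  have hp : p.Prime := Fact.out
  rw [Multiset.card_eq_zero, Multiset.filter_eq_nil]
  intro k hk h
  obtain ⟨i, -, rfl⟩ := Multiset.mem_map.1 hk
  have h2 := cast_of_mod hm h
  rw [Nat.cast_mul, Nat.cast_sub (Nat.one_le_pow _ _ hp.pos)] at h2
  push_cast at h2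
  rw [ZMod.natCast_self, zero_pow (by omega), zero_sub, neg_mul, one_mul] at h2
  have h3 : ((q : ZMod p) ^ i) = -1 := by rw [← h2, neg_neg]
  have h4 : ((q : ZMod p)) ^ (2 * i) = 1 := by rw [mul_comm, pow_mul, h3, neg_one_sq]
  have h5 := orderOf_dvd_of_pow_eq_one h4
  rw [ho] at h5
  have h6 : Nat.Coprime e 2 := ((Nat.Prime.coprime_iff_not_dvd Nat.prime_two).2 he).symm
  have h7 := h6.dvd_of_dvd_mul_left h5
  rw [← ho, orderOf_dvd_iff_pow_eq_one, h3] at h7
  have h8 : (2 : ZMod p) = 0 := by linear_combination -h7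
  have h9 : p ∣ 2 := by
    rw [← ZMod.natCast_eq_zero_iff]
    exact_mod_cast h8
  exact hp2 ((Nat.prime_dvd_prime_iff_eq hp Nat.prime_two).1 h9)

theorem count_zero [Fact p.Prime] (hm : 1 ≤ m) (j : ℕ) :
    ((Multiset.replicate j 0).filter fun k => k % p ^ m = 1 % p ^ m).card = 0 := by
  classical
  have hp : p.Prime := Fact.out
  rw [Multiset.card_eq_zero, Multiset.filter_eq_nil]
  intro k hk h
  rw [Multiset.eq_of_mem_replicate hk] at h
  rw [Nat.zero_mod, Nat.mod_eq_of_lt (Nat.one_lt_pow (by omega) hp.one_lt)] at h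
  omega

end count

/-- **the element `y`** -/
theorem exists_elt {K : Type} [Field K] [Algebra F K] [Fintype F] {p n : ℕ} [Fact p.Prime] (hp2 : p ≠ 2)
    (hpq : ¬ p ∣ Fintype.card F) (hd : p ∣ Nat.card (Matrix.symplecticGroup (Fin n) F)) {e m : ℕ} {ω : K} (he : 0 < e)
    (ho : orderOf ((Fintype.card F : ℕ) : ZMod p) = e) (hm : 1 ≤ m) (h1 : p ^ (m + 1) ∣ Fintype.card F ^ e - 1)
    (hω : IsPrimitiveRoot ω (p ^ (m + 1))) :
    ∃ (t : Matrix.symplecticGroup (Fin n) F) (s : Multiset ℕ), t ^ p ^ (m + 1) = 1 ∧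
      (((t : Matrix (Fin n ⊕ Fin n) (Fin n ⊕ Fin n) F).charpoly).map (algebraMap F K)).roots = s.map (fun k => ω ^ k) ∧
      (s.filter fun k => k % p ^ m = 1 % p ^ m).card = 1 := by
  classical
  have hp : p.Prime := Fact.out
  set q := Fintype.card F with hqdef
  have hq : 1 ≤ q := Fintype.card_pos
  have hpos : 0 < p ^ (m + 1) := pow_pos hp.pos _
  have hω0 : ω ≠ 0 := hω.ne_zero hpos.ne'
  have hint : IsIntegral F ω := (hω.isIntegral hpos).tower_top
  have hint' : IsIntegral F ω⁻¹ := (hω.inv.isIntegral hpos).tower_top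
  have hiff := pow_iff hq ho h1 hp.pos hω
  have hiff' := pow_iff hq ho h1 hp.pos hω.inv
  have hdeg : (minpoly F ω).natDegree = e := Cfsg.Agent.H722.HT.natDegree_minpoly hint hiff
  have hdeg' : (minpoly F ω⁻¹).natDegree = e := Cfsg.Agent.H722.HT.natDegree_minpoly hint' hiff'
  let L := IntermediateField.adjoin F {ω}
  let x : L := IntermediateField.AdjoinSimple.gen F ω
  have hxK : algebraMap L K x = ω := IntermediateField.AdjoinSimple.algebraMap_gen F ω
  have hfd : FiniteDimensional F L := IntermediateField.adjoin.finiteDimensional hint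
  have hfr : Module.finrank F L = e := by rw [IntermediateField.adjoin.finrank hint, hdeg]
  have hmx : minpoly F x = minpoly F ω := IntermediateField.minpoly_gen F ω
  have hmx' : minpoly F x⁻¹ = minpoly F ω⁻¹ := by
    rw [← minpoly.algebraMap_eq (algebraMap L K).injective x⁻¹, map_inv₀, hxK]
  have hx0 : x ≠ 0 := by
    intro h
    rw [h, map_zero] at hxK
    exact hω0 hxK.symm
  have hfinL : Finite L := Module.finite_of_finite F
  have hxN : x ^ p ^ (m + 1) = 1 := by
    apply (algebraMap L K).injective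
    rw [map_pow, hxK, hω.pow_eq_one, map_one]
  have hr1 : ∀ j : ℕ, (((X - 1 : F[X]) ^ j).map (algebraMap F K)).roots = (Multiset.replicate j 0).map fun k => ω ^ k := by
    intro j
    rw [Polynomial.map_pow, Polynomial.map_sub, Polynomial.map_X, Polynomial.map_one, Polynomial.roots_pow,
      ← Polynomial.C_1, Polynomial.roots_X_sub_C, Multiset.map_replicate, pow_zero, Multiset.nsmul_singleton]
  have hr2 : ((minpoly F ω).map (algebraMap F K)).roots = ((Multiset.range e).map fun i => q ^ i).map fun k => ω ^ k := by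
    rw [Cfsg.Agent.H722.HT.roots_minpoly hint hiff, Multiset.map_map]
    rfl
  have hr3 : ((minpoly F ω⁻¹).map (algebraMap F K)).roots =
      ((Multiset.range e).map fun i => (p ^ (m + 1) - 1) * q ^ i).map fun k => ω ^ k := by
    rw [Cfsg.Agent.H722.HT.roots_minpoly hint' hiff', Multiset.map_map]
    refine Multiset.map_congr rfl fun i _ => ?_
    change ω⁻¹ ^ q ^ i = ω ^ ((p ^ (m + 1) - 1) * q ^ i)
    rw [pow_mul]
    congr 1
    exact (eq_inv_of_mul_eq_one_left (by rw [← pow_succ, Nat.sub_add_cancel hpos, hω.pow_eq_one])).symm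
  have hne : ∀ P : F[X], P.Monic → P.map (algebraMap F K) ≠ 0 := fun P hP => (hP.map _).ne_zero
  have hX : ∀ j : ℕ, ((X - 1 : F[X]) ^ j).Monic := fun j => by
    have : (X - 1 : F[X]) = X - C 1 := by rw [C_1]
    rw [this]
    exact (monic_X_sub_C 1).pow j
  rcases rank_of_dvd hpq hd ho with ⟨d, hed, hdn⟩ | ⟨hodd, hen⟩
  · have h2 : p ^ (m + 1) ∣ q ^ d + 1 := by
      have h3 : q ^ e - 1 = (q ^ d + 1) * (q ^ d - 1) := by
        rw [hed, mul_comm 2 d, pow_mul, sq]
        have := Nat.mul_self_sub_mul_self_eq (q ^ d) 1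
        simpa using this
      rw [h3] at h1
      refine (Nat.Coprime.dvd_mul_right ?_).1 h1
      refine Nat.Coprime.pow_left _ ((Nat.Prime.coprime_iff_not_dvd hp).2 ?_)
      rw [dvd_iff hq, ho]
      intro h4
      have := Nat.le_of_dvd (by omega) h4
      omega
    have h3 : x * x ^ q ^ d = 1 := by
      rw [← pow_succ']
      obtain ⟨c, hc⟩ := h2
      rw [hc, pow_mul, hxN, one_pow]
    have h4 : x ^ q ^ d ≠ x := by
      intro h
      have h5 := congrArg (algebraMap L K) h
      rw [map_pow, hxK, hiff] at h5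
      have := Nat.le_of_dvd (by omega) h5
      omega
    obtain ⟨t, ht1, ht2⟩ := exists_even (n := n) (hfr.trans hed) hdn h3 h4 (by rw [hmx, hdeg, hfr])
    refine ⟨t, ((Multiset.range e).map fun i => q ^ i) + Multiset.replicate (2 * (n - d)) 0, ht2 _ hxN, ?_, ?_⟩
    · rw [ht1, hmx, Polynomial.map_mul, Polynomial.roots_mul (mul_ne_zero (hne _ (minpoly.monic hint)) (hne _ (hX _))),
        hr1, hr2, Multiset.map_add]
    · rw [Multiset.filter_add, Multiset.card_add, count_pos hm he ho, count_zero hm]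
  · have hsep : Algebra.IsSeparable F L := inferInstance
    obtain ⟨t, ht1, ht2⟩ := exists_odd (n := n) (L := L) (by rw [hfr]; exact hen) hx0 (by rw [hmx, hdeg, hfr])
      (by rw [hmx', hdeg', hfr])
    refine ⟨t, ((Multiset.range e).map fun i => q ^ i) + ((Multiset.range e).map fun i => (p ^ (m + 1) - 1) * q ^ i) +
      Multiset.replicate (2 * (n - Module.finrank F L)) 0, ht2 _ hxN, ?_, ?_⟩
    · rw [ht1, hmx, hmx', Polynomial.map_mul, Polynomial.map_mul, Polynomial.roots_mul
        (mul_ne_zero (mul_ne_zero (hne _ (minpoly.monic hint)) (hne _ (minpoly.monic hint'))) (hne _ (hX _))),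
        Polynomial.roots_mul (mul_ne_zero (hne _ (minpoly.monic hint)) (hne _ (minpoly.monic hint'))),
        hr1, hr2, hr3, Multiset.map_add, Multiset.map_add]
    · rw [Multiset.filter_add, Multiset.filter_add, Multiset.card_add, Multiset.card_add, count_pos hm he ho,
        count_neg hp2 hm hodd ho, count_zero hm]

end Cfsg.Agent.H37.HT.SpElt
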