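import Cfsg.Agent.H722.HT.Frame
import Cfsg.Agent.H37.HT.SpElt
import Cfsg.Agent.Schreier.ClassPSp
import Cfsg.Agent.LieClassical.SpFourTwo
import Cfsg.Agent.S0814
import Cfsg.Agent.S0246
import Cfsg.Agent.H934.OutB
import Cfsg.Agent.H892.HT.Disp

/-!
# S4933, part (O): `PSp_{2m}(q)` (helper37)

The field `OAb.psp`.
-/

set_option autoImplicit false
set_option linter.unusedSectionVars false

open Subgroup Polynomial

namespace Cfsg.Agent.H37.HT.Psp

open Cfsg Cfsg.Agent.H316.HT Cfsg.Agent.H37.HT Cfsg.Agent.H722.HT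
open Cfsg.Agent.ClassicalGeometry.SympAutSemi Cfsg.Agent.ClassicalGeometry.SympGamma
open Cfsg.Agent.ClassicalGeometry.SympBasic

variable {F : Type} [Field F] {m : ℕ}

local notation "G" => Matrix.symplecticGroup (Fin m) F

/-- the characteristic polynomial -/
noncomputable def chi (t : Matrix.symplecticGroup (Fin m) F) : F[X] :=
  (t : Matrix (Fin m ⊕ Fin m) (Fin m ⊕ Fin m) F).charpoly

theorem conj_mulVec (g : semiSim m F) (t : G) (v : Fin m ⊕ Fin m → F) :
    ((conjHom m F g t : G) : Matrix (Fin m ⊕ Fin m) (Fin m ⊕ Fin m) F).mulVec (g.1 v) =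
      g.1 ((t : Matrix (Fin m ⊕ Fin m) (Fin m ⊕ Fin m) F).mulVec v) := by
  have h1 := DFunLike.congr_fun (rho_conjHom g t) (g.1 v)
  rw [Equiv.Perm.mul_apply, Equiv.Perm.mul_apply, perm_inv_apply_self, rho_apply, rho_apply] at h1
  exact h1

theorem frob_mulVec (σ : F ≃+* F) (A : Matrix (Fin m ⊕ Fin m) (Fin m ⊕ Fin m) F) (v : Fin m ⊕ Fin m → F) :
    frobPerm m σ (A.mulVec v) = (A.map σ).mulVec (frobPerm m σ v) := by
  funext i
  rw [frobPerm_apply]
  simp only [Matrix.mulVec, dotProduct, map_sum, map_mul, Matrix.map_apply, frobPerm_apply]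

/-- semisimilitudes and characteristic polynomials -/
theorem chi_conj (g : semiSim m F) {σ : F ≃+* F} {l : F} (hg : IsSemi g.1 σ l) (t : G) :
    chi (conjHom m F g t) = (chi t).map (σ : F →+* F) := by
  have h0 := hg.mul ((isSemi_frobPerm (m := m) σ).inv one_ne_zero)
  let h : Equiv.Perm (Fin m ⊕ Fin m → F) := g.1 * (frobPerm m σ)⁻¹
  have hgh : ∀ v, g.1 v = h (frobPerm m σ v) := by
    intro v
    change g.1 v = g.1 ((frobPerm m σ)⁻¹ (frobPerm m σ v))
    rw [perm_inv_apply_self]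
  let H : (Fin m ⊕ Fin m → F) ≃ₗ[F] (Fin m ⊕ Fin m → F) :=
    { h with
      map_add' := h0.1
      map_smul' := fun a v => by
        have h1 := h0.2.1 a v
        rw [RingEquiv.trans_apply, RingEquiv.apply_symm_apply] at h1
        exact h1 }
  have hH : ∀ v, H v = h v := fun v => rfl
  have key : H.conj (Matrix.toLin' ((t : Matrix (Fin m ⊕ Fin m) (Fin m ⊕ Fin m) F).map σ)) =
      Matrix.toLin' ((conjHom m F g t : G) : Matrix (Fin m ⊕ Fin m) (Fin m ⊕ Fin m) F) := by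
    refine LinearMap.ext fun v => ?_
    obtain ⟨w, rfl⟩ := H.surjective v
    obtain ⟨u, rfl⟩ := (frobPerm m σ).surjective w
    rw [LinearEquiv.conj_apply_apply, LinearEquiv.symm_apply_apply, Matrix.toLin'_apply, Matrix.toLin'_apply,
      ← frob_mulVec, hH, hH, ← hgh, ← hgh, conj_mulVec]
  unfold chi
  rw [← Matrix.charpoly_map, 
    ← Matrix.charpoly_toLin' ((conjHom m F g t : G) : Matrix (Fin m ⊕ Fin m) (Fin m ⊕ Fin m) F), ← key,
    LinearEquiv.charpoly_conj, Matrix.charpoly_toLin']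
  rfl

/-- the covering -/
def pi (m : ℕ) (F : Type) [Field F] : Matrix.symplecticGroup (Fin m) F →* PSp m F :=
  QuotientGroup.mk' (Subgroup.center (Matrix.symplecticGroup (Fin m) F))

theorem cov (p : ℕ) (g : semiSim m F) {σ : F ≃+* F} {l : F} (hg : IsSemi g.1 σ l) :
    Cov p (pi m F) chi (σ : F →+* F) (Psi m F g) := by
  intro t ht
  refine ⟨conjHom m F g t, isP_aut ht _, rfl, chi_conj g hg t⟩

/-- the field automorphism -/
def phi0 (m : ℕ) (σ : F ≃+* F) : semiSim m F := ⟨frobPerm m σ, σ, 1, one_ne_zero, isSemi_frobPerm σ⟩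

theorem phi0_pow [Fintype F] {r f : ℕ} (hF : Fintype.card F = r ^ f) {σ : F ≃+* F} (hσ : ∀ a, σ a = a ^ r) :
    phi0 m σ ^ f = 1 := by
  have h1 : ∀ (k : ℕ) (v : Fin m ⊕ Fin m → F) (i : Fin m ⊕ Fin m), (frobPerm m σ ^ k) v i = v i ^ r ^ k := by
    intro k
    induction k with
    | zero => intro v i; rw [pow_zero, pow_zero, pow_one]; rfl
    | succ k ih =>
      intro v i
      rw [pow_succ, Equiv.Perm.mul_apply, ih, frobPerm_apply, hσ, ← pow_mul, ← pow_succ']
  apply Subtype.ext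
  rw [SubgroupClass.coe_pow]
  change frobPerm m σ ^ f = 1
  apply Equiv.ext
  intro v
  funext i
  rw [h1, ← hF, FiniteField.pow_card]
  rfl

/-- the commutator with the field automorphism -/
theorem hc_range [Finite F] (p : ℕ) (σ : F ≃+* F) (γ : semiSim m F) :
    ∃ h : MulAut (PSp m F), Psi m F γ * Psi m F (phi0 m σ) * (Psi m F γ)⁻¹ = h * Psi m F (phi0 m σ) ∧
      Cov p (pi m F) chi (RingHom.id F) h := by
  obtain ⟨τ, l, hl, hγ⟩ := γ.2
  have h1 := Cfsg.Agent.Schreier.ClassPSp.IsSemi.comm hl one_ne_zero hγ (isSemi_frobPerm (m := m) σ)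
  refine ⟨Psi m F (γ * phi0 m σ * γ⁻¹ * (phi0 m σ)⁻¹), ?_, ?_⟩
  · rw [map_mul, map_mul, map_mul, map_inv, map_inv]
    group
  · exact cov p _ (σ := RingEquiv.refl F) h1

/-- the graph automorphism of `Sp₄(2^f)` commutes with the field automorphism -/
theorem gamma_sq [Finite F] [CharP F 2] {σ : F ≃+* F} (hσ : ∀ a, σ a = a ^ 2) :
    Cfsg.Agent.ClassicalGeometry.Sp4GraphAut.gamma F * Cfsg.Agent.ClassicalGeometry.Sp4GraphAut.gamma F =
      Psi 2 F (phi0 2 σ) := by
  apply MulEquiv.ext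
  intro x
  obtain ⟨A, rfl⟩ := QuotientGroup.mk_surjective x
  rw [MulAut.mul_apply, Cfsg.Agent.ClassicalGeometry.Sp4GraphAut.gamma_mk,
    Cfsg.Agent.ClassicalGeometry.Sp4GraphAut.gamma_mk, Psi_mk]
  congr 1
  apply rho_injective
  rw [rho_conjHom]
  apply Equiv.ext
  intro v
  obtain ⟨w, rfl⟩ := (frobPerm 2 σ).surjective v
  rw [Equiv.Perm.mul_apply, Equiv.Perm.mul_apply, rho_apply, rho_apply]
  change _ = frobPerm 2 σ (Matrix.mulVec A.1 ((frobPerm 2 σ)⁻¹ (frobPerm 2 σ w)))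
  rw [perm_inv_apply_self, frob_mulVec]
  congr 1
  ext i j
  rw [Cfsg.Agent.ClassicalGeometry.Sp4Graph.graphHom_graphHom, Matrix.map_apply, hσ]

/-- **all automorphisms** -/
theorem hc_psp [Fintype F] (p : ℕ) {r f : ℕ} [hr : Fact r.Prime] (hF : Fintype.card F = r ^ f) (hm : 2 ≤ m)
    (h22 : m = 2 → 3 ≤ Fintype.card F) {σ : F ≃+* F} (hσ : ∀ a, σ a = a ^ r) (g : MulAut (PSp m F)) :
    ∃ h : MulAut (PSp m F), g * Psi m F (phi0 m σ) * g⁻¹ = h * Psi m F (phi0 m σ) ∧
      Cov p (pi m F) chi (RingHom.id F) h := by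
  have hB : ∀ α : MulAut (PSp m F), Cfsg.Agent.ClassicalGeometry.AutPSpCount.Pres α → α ∈ (Psi m F).range := by
    intro α hα
    obtain ⟨g, hg⟩ := Cfsg.Agent.ClassicalGeometry.SympAutExists.exists_semi hm α hα
    exact ⟨g, hg⟩
  by_cases hcase : m = 2 ∧ (2 : F) = 0
  · obtain ⟨rfl, h20⟩ := hcase
    have hchar : CharP F 2 := CharTwo.of_one_ne_zero_of_two_eq_zero one_ne_zero h20
    have hr2 : r = 2 := by
      obtain ⟨n, -, hn⟩ := FiniteField.card F 2
      have h1 : r ∣ 2 ^ (n : ℕ) := by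
        rw [← hn, hF]
        refine dvd_pow_self r ?_
        rintro rfl
        have := Fintype.one_lt_card (α := F)
        rw [hF, pow_zero] at this
        omega
      exact (Nat.prime_dvd_prime_iff_eq hr.out Nat.prime_two).1 (hr.out.dvd_of_dvd_pow h1)
    subst hr2
    have ht : ∃ t : F, t ≠ 0 ∧ t ≠ 1 := by
      by_contra hcon
      push Not at hcon
      have h3 : Fintype.card F ≤ 2 := by
        classical
        have : (Finset.univ : Finset F) ⊆ {0, 1} := by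
          intro t _
          by_cases h0 : t = 0
          · simp [h0]
          · simp [hcon t h0]
        exact (Finset.card_le_card this).trans (Finset.card_le_two)
      have h4 := h22 rfl
      omega
    have hidx := Cfsg.Agent.ClassicalGeometry.SympAutTwo.index_two ht hB
    by_cases hg : g ∈ (Psi 2 F).range
    · obtain ⟨γ, rfl⟩ := hg
      exact hc_range p σ γ
    · set δ := Cfsg.Agent.ClassicalGeometry.Sp4GraphAut.gamma F with hδ
      have hδn : δ ∉ (Psi 2 F).range := by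
        intro h
        obtain ⟨w, -, d, -, h1⟩ := Cfsg.Agent.ClassicalGeometry.AutPSpCount.pres_of_mem_range h
          (Cfsg.Agent.ClassicalGeometry.Sp4GraphAut.e1 F)
          Cfsg.Agent.ClassicalGeometry.Sp4GraphAut.e1_ne_zero 1 one_ne_zero
        exact Cfsg.Agent.ClassicalGeometry.Sp4GraphAut.gamma_transv_ne one_ne_zero w d h1
      have hδn' : δ⁻¹ ∉ (Psi 2 F).range := fun h => hδn (by simpa using inv_mem h)
      obtain ⟨γ, hγ⟩ : g * δ⁻¹ ∈ (Psi 2 F).range :=
        (Subgroup.mul_mem_iff_of_index_two hidx).2 ⟨fun h => absurd h hg, fun h => absurd h hδn'⟩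
      have hcomm : δ * Psi 2 F (phi0 2 σ) * δ⁻¹ = Psi 2 F (phi0 2 σ) := by
        rw [← gamma_sq hσ, ← hδ]
        group
      obtain ⟨h, h1, h2⟩ := hc_range p σ γ
      refine ⟨h, ?_, h2⟩
      rw [← h1, hγ]
      have h3 : g * δ⁻¹ * Psi 2 F (phi0 2 σ) * (g * δ⁻¹)⁻¹ =
          g * δ⁻¹ * (δ * Psi 2 F (phi0 2 σ) * δ⁻¹) * (g * δ⁻¹)⁻¹ := by rw [hcomm]
      rw [h3]
      group
  · have hg : g ∈ (Psi m F).range := by
      apply hB
      refine Cfsg.Agent.ClassicalGeometry.SympAutOddA.recog hm ?_ g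
      by_cases hm2 : m = 2
      · right
        intro h2
        exact hcase ⟨hm2, h2⟩
      · left; omega
    obtain ⟨γ, rfl⟩ := hg
    exact hc_range p σ γ

/-- `PSp_4(2)` is not simple -/
theorem three_le_of_simple [Fintype F] [IsSimpleGroup (PSp 2 F)] : 3 ≤ Fintype.card F := by
  by_contra hlt
  have hq1 : 1 < Fintype.card F := Fintype.one_lt_card
  have hF : Fintype.card F = 2 := by omega
  obtain ⟨e⟩ := Cfsg.Agent.LieClassical.SpFourTwo.nonempty_equiv_perm hF
  have h1 : Nat.card (Subgroup.center (Matrix.symplecticGroup (Fin 2) F)) = 1 := by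
    rw [Cfsg.Agent.S0246.result (q := Fintype.card F) rfl 2 (by norm_num), hF]
    rfl
  have h2 : Subgroup.center (Matrix.symplecticGroup (Fin 2) F) = ⊥ := Subgroup.card_eq_one.1 h1
  let e2 : PSp 2 F ≃* Equiv.Perm (Fin 6) :=
    ((QuotientGroup.quotientMulEquivOfEq h2).trans QuotientGroup.quotientBot).trans e
  have _ : IsSimpleGroup (Equiv.Perm (Fin 6)) := e2.symm.isSimpleGroup
  have h3 : (alternatingGroup (Fin 6)).index = 2 := alternatingGroup.index_eq_two
  have h4 : (alternatingGroup (Fin 6)).Normal := Subgroup.normal_of_index_eq_two h3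
  rcases h4.eq_bot_or_eq_top with h5 | h5
  · rw [h5, Subgroup.index_bot, Nat.card_perm, Nat.card_eq_fintype_card, Fintype.card_fin] at h3
    exact absurd h3 (by decide)
  · rw [h5, Subgroup.index_top] at h3
    omega

theorem not_comm (hm : 2 ≤ m) [Finite F] : ¬ IsMulCommutative (PSp m F) := by
  intro h
  obtain ⟨ℓ, hℓ⟩ := CharP.exists F
  have hℓp : Fact ℓ.Prime := ⟨CharP.char_is_prime F ℓ⟩
  obtain ⟨e1, e2, hee⟩ := Cfsg.Agent.ClassicalGeometry.SympAutExists.exists_hyperbolic (F := F) (m := m) (by omega)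
  have h4 := (Cfsg.Agent.ClassicalGeometry.SympAutExists.commute_iff (F := F) ℓ (m := m) (by omega) (v := e1) (w := e2)
    one_ne_zero one_ne_zero).1 (h.is_comm.comm _ _)
  rw [hee] at h4
  exact one_ne_zero h4

/-- **O.cl.psp** -/
theorem row_psp {p : ℕ} [hp : Fact p.Prime] (hp2 : p ≠ 2) {F : Type} [Field F] [Fintype F] {m : ℕ} (hm : 2 ≤ m)
    [hs : IsSimpleGroup (PSp m F)] (hpq : ¬ p ∣ Fintype.card F) (hd : p ∣ Nat.card (PSp m F))
    (hab : AbSyl p (PSp m F)) : Row p (PSp m F) := by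
  obtain ⟨r, hr⟩ := CharP.exists F
  have hrp : r.Prime := CharP.char_is_prime F r
  have : Fact r.Prime := ⟨hrp⟩
  obtain ⟨f, -, hF⟩ := FiniteField.card F r
  have hf : 0 < (f : ℕ) := f.2
  have hrne : r ≠ p := by
    rintro rfl
    exact hpq (by rw [hF]; exact dvd_pow_self _ hf.ne')
  have hpF : (p : F) ≠ 0 := by
    intro h
    exact hrne ((Nat.prime_dvd_prime_iff_eq hrp hp.out).1 ((CharP.cast_eq_zero_iff F r p).1 h))
  have h22 : m = 2 → 3 ≤ Fintype.card F := by
    rintro rfl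
    exact three_le_of_simple
  have hp2' : ¬ p ∣ 2 := fun h => hp2 ((Nat.prime_dvd_prime_iff_eq hp.out Nat.prime_two).1 h)
  have hfin : Finite (PSp m F) := by
    unfold PSp
    infer_instance
  have hker : (pi m F).ker = Subgroup.center (Matrix.symplecticGroup (Fin m) F) := QuotientGroup.ker_mk' _
  have hcen : Nat.card (Subgroup.center (Matrix.symplecticGroup (Fin m) F)) = Nat.gcd 2 (Fintype.card F - 1) :=
    Cfsg.Agent.S0246.result rfl m (by omega)
  obtain ⟨σ, hσ⟩ : ∃ σ : F ≃+* F, ∀ a, σ a = a ^ r := ⟨frobeniusEquiv F r, fun a => frobenius_def r a⟩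
  obtain ⟨E, hE1, hE2⟩ := exists_ed (f := f) hF hpF hab (pi m F) (QuotientGroup.mk'_surjective _)
    (fun z hz x => by
      rw [hker] at hz
      exact (Subgroup.mem_center_iff.1 hz x).symm)
    (by
      rw [hker, hcen]
      exact fun h => hp2' (h.trans (Nat.gcd_dvd_left _ _)))
    (Matrix.symplecticGroup (Fin m) F).subtype
  refine row_of_cov hp2 hrp hrne hf hF hab ?_ (pi m F) chi E hE1 hE2 ?_ (Psi m F (phi0 m σ)) (σ : F →+* F) hσ
    (cov p _ (isSemi_frobPerm σ)) ⟨1, fun h => hp.out.one_lt.ne' (Nat.dvd_one.1 h), ?_⟩ (hc_psp p hF hm h22 hσ)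
  · have h1 := Cfsg.Agent.H934.OutB.card_out_of_aut (not_comm hm)
      (Cfsg.Agent.S0814.result r f hf hF m hm (by rwa [hF] at h22))
    rw [h1]
    have h3 : ∃ c : ℕ, c ∣ 4 ∧ (if m = 2 ∧ r = 2 then 2 else 1) * Nat.gcd 2 (r ^ (f : ℕ) - 1) = c := by
      refine ⟨_, ?_, rfl⟩
      have h4 : Nat.gcd 2 (r ^ (f : ℕ) - 1) ∣ 2 := Nat.gcd_dvd_left _ _
      split_ifs
      · exact Nat.mul_dvd_mul (dvd_refl 2) h4
      · rw [one_mul]
        exact h4.trans (by norm_num)
    obtain ⟨c, hc, h3⟩ := h3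
    rw [h3]
    have hc0 : c ≠ 0 := ne_zero_of_dvd_ne_zero (by norm_num) hc
    have hpc : ¬ p ∣ c := fun h => hp2' (hp.out.dvd_of_dvd_pow (show p ∣ 2 ^ 2 from (h.trans hc)))
    rw [Nat.factorization_mul hc0 hf.ne', Finsupp.add_apply, Nat.factorization_eq_zero_of_not_dvd hpc, zero_add]
  · intro e k ω he ho hk h1 _ hω
    rw [← hF] at ho h1
    have hd' : p ∣ Nat.card (Matrix.symplecticGroup (Fin m) F) :=
      hd.trans (Subgroup.card_dvd_of_surjective (pi m F) (QuotientGroup.mk'_surjective _))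
    obtain ⟨t, s, h2, h3, h4⟩ := Cfsg.Agent.H37.HT.SpElt.exists_elt hp2 hpq hd' he ho hk h1 hω
    refine ⟨t, s, ⟨_, h2⟩, h3, ?_⟩
    rw [Nat.mod_eq_of_lt (Nat.one_lt_pow (by omega) hp.out.one_lt)] at h4
    rw [h4]
    exact fun h => hp.out.one_lt.ne' (Nat.dvd_one.1 h)
  · rw [one_mul, ← map_pow, phi0_pow hF hσ, map_one]
    exact Subgroup.one_mem _

/-- **the field `OAb.psp`** (with `p ∣ |S|`) -/
theorem psp (p : ℕ) [Fact p.Prime] (F : Type) [Field F] [Fintype F] (m : ℕ) [IsSimpleGroup (PSp m F)] (hp2 : p ≠ 2)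
    (hm : 2 ≤ m) (hpq : ¬ p ∣ Fintype.card F) (hab : Cfsg.Agent.H892.HT.Ab p (PSp m F)) (hd : p ∣ Nat.card (PSp m F)) :
    Row p (PSp m F) :=
  row_psp hp2 hm hpq hd fun P x hx y hy => congrArg Subtype.val ((hab P).is_comm.comm ⟨x, hx⟩ ⟨y, hy⟩)

end Cfsg.Agent.H37.HT.Psp
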